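import Mathlib
import Cfsg.Prelude.Def_DegreeGraph
import Cfsg.Agent.Lib.Helper80.Orthogonality
import Cfsg.Agent.Lib.Helper80.CharOps
import Cfsg.Agent.Lib.Helper79.Linear

/-!
# The alternating group of degree 5 has an irreducible character of degree 5

Counting argument: at most five conjugacy classes, one linear character, sum of squares 60.
-/

set_option autoImplicit false
set_option linter.style.haveILetI false
set_option linter.unusedSectionVars false
set_option linter.deprecated false

namespace Cfsg.Agent.Lib.Helper64.A5Degrees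

open Equiv Equiv.Perm
open scoped commutatorElement

/-- The cycle types of the even permutations of five points. -/
theorem cycleType_cases (g : Perm (Fin 5)) (hg : g ∈ alternatingGroup (Fin 5)) :
    g = 1 ∨ g.IsThreeCycle ∨ (g ≠ 1 ∧ ∀ n ∈ g.cycleType, n = 2) ∨ g.cycleType = {5} := by
  have hsum : g.cycleType.sum ≤ 5 := by
    rw [Equiv.Perm.sum_cycleType]
    simpa using g.support.card_le_univ
  have h2 : ∀ n ∈ g.cycleType, 2 ≤ n := fun n hn => Equiv.Perm.two_le_of_mem_cycleType hn
  have hsign : (-1 : ℤˣ) ^ (g.cycleType.sum + Multiset.card g.cycleType) = 1 := by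
    rw [← Equiv.Perm.sign_of_cycleType]
    exact mem_alternatingGroup.mp hg
  have hcard : Multiset.card g.cycleType ≤ 2 := by
    have : Multiset.card g.cycleType • 2 ≤ g.cycleType.sum := Multiset.card_nsmul_le_sum h2
    rw [smul_eq_mul] at this
    omega
  have heven : Even (g.cycleType.sum + Multiset.card g.cycleType) := by
    by_contra hodd
    rw [Nat.not_even_iff_odd] at hodd
    rw [Odd.neg_one_pow hodd] at hsign
    exact absurd hsign (by decide)
  obtain ⟨m, hm⟩ : ∃ m, g.cycleType = m := ⟨_, rfl⟩
  rw [hm] at hsum h2 hcard heven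
  interval_cases hc : Multiset.card m
  · left
    rw [Multiset.card_eq_zero] at hc
    rw [hc] at hm
    exact Equiv.Perm.cycleType_eq_zero.mp hm
  · obtain ⟨a, rfl⟩ := Multiset.card_eq_one.mp hc
    simp only [Multiset.sum_singleton, Multiset.mem_singleton, forall_eq] at hsum h2 heven
    have : a = 3 ∨ a = 5 := by
      rcases heven with ⟨k, hk⟩
      omega
    rcases this with rfl | rfl
    · right; left; exact hm
    · right; right; right; exact hm
  · obtain ⟨a, b, rfl⟩ := Multiset.card_eq_two.mp hc
    have ha := h2 a (by simp)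
    have hb := h2 b (by simp)
    have hs : a + b ≤ 5 := by simpa using hsum
    have : a = 2 ∧ b = 2 := by
      have he : Even (a + b + 2) := by simpa using heven
      rcases he with ⟨k, hk⟩
      omega
    obtain ⟨rfl, rfl⟩ := this
    right; right; left
    refine ⟨?_, ?_⟩
    · rintro rfl
      simp at hm
    · intro n hn
      rw [hm] at hn
      simpa using hn

/-- Conjugacy in the symmetric group gives conjugacy in the alternating group up to an odd twist. -/
theorem isConj_or {x g : alternatingGroup (Fin 5)} (t : Perm (Fin 5)) (ht : Perm.sign t = -1)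
    (h : IsConj (x : Perm (Fin 5)) g) :
    IsConj x g ∨ IsConj (⟨t * x.1 * t⁻¹, (alternatingGroup.normal).conj_mem _ x.2 t⟩ :
      alternatingGroup (Fin 5)) g := by
  obtain ⟨π, hπ⟩ := isConj_iff.mp h
  rcases Int.units_eq_one_or (Perm.sign π) with h1 | h1
  · left
    exact isConj_iff.mpr ⟨⟨π, mem_alternatingGroup.mpr h1⟩, Subtype.ext hπ⟩
  · right
    refine isConj_iff.mpr ⟨⟨π * t⁻¹, mem_alternatingGroup.mpr
      (by rw [map_mul, map_inv, h1, ht]; decide)⟩, Subtype.ext ?_⟩
    change π * t⁻¹ * (t * x.1 * t⁻¹) * (π * t⁻¹)⁻¹ = g.1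
    rw [← hπ]
    group

/-- The alternating group of degree 5 has at most five conjugacy classes. -/
theorem card_conjClasses_le : Nat.card (ConjClasses (alternatingGroup (Fin 5))) ≤ 5 := by
  classical
  haveI : Fintype (ConjClasses (alternatingGroup (Fin 5))) := Fintype.ofFinite _
  have ht : Perm.sign (swap (0 : Fin 5) 4) = -1 := Equiv.Perm.sign_swap (by decide)
  have h3c : IsThreeCycle (swap (1 : Fin 5) 2 * swap 1 3) :=
    isThreeCycle_swap_mul_swap_same (by decide) (by decide) (by decide)
  have hr2 : swap (0 : Fin 5) 4 * swap 1 3 ∈ alternatingGroup (Fin 5) :=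
    mul_mem_alternatingGroup_of_isSwap ⟨0, 4, by decide, rfl⟩ ⟨1, 3, by decide, rfl⟩
  have hc : finRotate 5 ∈ alternatingGroup (Fin 5) := finRotate_bit1_mem_alternatingGroup (n := 2)
  have hcc : swap (0 : Fin 5) 4 * finRotate 5 * (swap (0 : Fin 5) 4)⁻¹ ∈ alternatingGroup (Fin 5) :=
    (alternatingGroup.normal).conj_mem _ hc _
  have key : ∀ g : alternatingGroup (Fin 5), ConjClasses.mk g ∈
      ({ConjClasses.mk 1, ConjClasses.mk ⟨_, h3c.mem_alternatingGroup⟩, ConjClasses.mk ⟨_, hr2⟩,
        ConjClasses.mk ⟨_, hc⟩, ConjClasses.mk ⟨_, hcc⟩} :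
        Finset (ConjClasses (alternatingGroup (Fin 5)))) := by
    intro g
    simp only [Finset.mem_insert, Finset.mem_singleton, ConjClasses.mk_eq_mk_iff_isConj]
    rcases cycleType_cases g.1 g.2 with h | h | h | h
    · left
      have : g = 1 := Subtype.ext h
      rw [this]
    · right; left
      exact alternatingGroup.isThreeCycle_isConj (by simp) h h3c
    · right; right; left
      have h1 := alternatingGroup.isConj_swap_mul_swap_of_cycleType_two g.2 h.1 h.2
      have h2 := isConj_or (x := ⟨_, hr2⟩) (g := g) (swap (0 : Fin 5) 4) ht h1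
      have e : swap (0 : Fin 5) 4 * (swap (0 : Fin 5) 4 * swap 1 3) * (swap (0 : Fin 5) 4)⁻¹
          = swap (0 : Fin 5) 4 * swap 1 3 := by decide
      rcases h2 with h2 | h2
      · exact h2.symm
      · simp only [e] at h2
        exact h2.symm
    · right; right; right
      have h1 : IsConj (finRotate 5) g.1 := by
        rw [Equiv.Perm.isConj_iff_cycleType_eq, h, cycleType_finRotate_of_le (by norm_num)]
      have h2 := isConj_or (x := ⟨_, hc⟩) (g := g) (swap (0 : Fin 5) 4) ht h1
      rcases h2 with h2 | h2
      · left; exact h2.symm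
      · right; exact h2.symm
  have hsub : (Finset.univ : Finset (ConjClasses (alternatingGroup (Fin 5)))) ⊆
      ({ConjClasses.mk 1, ConjClasses.mk ⟨_, h3c.mem_alternatingGroup⟩, ConjClasses.mk ⟨_, hr2⟩,
        ConjClasses.mk ⟨_, hc⟩, ConjClasses.mk ⟨_, hcc⟩} :
        Finset (ConjClasses (alternatingGroup (Fin 5)))) := by
    intro x _
    obtain ⟨g, rfl⟩ := ConjClasses.mk_surjective x
    exact key g
  rw [Nat.card_eq_fintype_card, ← Finset.card_univ]
  exact (Finset.card_le_card hsub).trans Finset.card_le_five

/-- The alternating group of degree 5 is perfect. -/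
theorem commutator_eq_top : commutator (alternatingGroup (Fin 5)) = ⊤ := by
  haveI : IsSimpleGroup (alternatingGroup (Fin 5)) := alternatingGroup.isSimpleGroup (by simp)
  rcases (inferInstance : (commutator (alternatingGroup (Fin 5))).Normal).eq_bot_or_eq_top
    with h | h
  · exfalso
    have hc : Subgroup.center (alternatingGroup (Fin 5)) = ⊤ := by
      rw [eq_top_iff]
      intro x _
      rw [Subgroup.mem_center_iff]
      intro y
      have hm : ⁅y, x⁆ ∈ commutator (alternatingGroup (Fin 5)) := by
        rw [commutator_def]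
        exact Subgroup.commutator_mem_commutator (Subgroup.mem_top y) (Subgroup.mem_top x)
      rw [h, Subgroup.mem_bot, commutatorElement_eq_one_iff_mul_comm] at hm
      exact hm
    rw [alternatingGroup.center_eq_bot (by simp)] at hc
    exact bot_ne_top hc
  · exact h

/-- Pure arithmetic: the degree pattern. -/
theorem exists_five {ι : Type*} (s : Finset ι) (d : ι → ℕ) (hcard : s.card ≤ 5)
    (hsum : ∑ i ∈ s, d i ^ 2 = 60) (hpos : ∀ i ∈ s, 0 < d i)
    (hone : (s.filter (fun i => d i = 1)).card = 1) : ∃ i ∈ s, d i = 5 := by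
  classical
  by_contra hcon
  push Not at hcon
  have hle : ∀ i ∈ s, d i ≤ 7 := by
    intro i hi
    have h1 : d i ^ 2 ≤ ∑ j ∈ s, d j ^ 2 :=
      Finset.single_le_sum (f := fun j => d j ^ 2) (fun j _ => Nat.zero_le _) hi
    rw [hsum] at h1
    by_contra h8
    push Not at h8
    have : 8 ^ 2 ≤ d i ^ 2 := Nat.pow_le_pow_left h8 2
    omega
  have hmaps : ∀ i ∈ s, d i ∈ Finset.range 8 := fun i hi =>
    Finset.mem_range.mpr (by have := hle i hi; omega)
  have hc := Finset.card_eq_sum_card_fiberwise (f := d) (s := s) (t := Finset.range 8)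
    (fun i hi => hmaps i hi)
  have hs := Finset.sum_fiberwise_of_maps_to (s := s) (t := Finset.range 8) (g := d) hmaps
    (fun i => d i ^ 2)
  have hfib : ∀ j, ∑ i ∈ s with d i = j, d i ^ 2 = (s.filter (fun i => d i = j)).card * j ^ 2 := by
    intro j
    rw [Finset.sum_congr rfl (g := fun _ => j ^ 2)
      (fun i hi => by rw [(Finset.mem_filter.mp hi).2]), Finset.sum_const, smul_eq_mul]
  simp only [hfib] at hs
  rw [hsum] at hs
  have h0 : (s.filter (fun i => d i = 0)).card = 0 := by
    rw [Finset.card_eq_zero, Finset.filter_eq_empty_iff]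
    intro i hi h
    have := hpos i hi
    omega
  have h5 : (s.filter (fun i => d i = 5)).card = 0 := by
    rw [Finset.card_eq_zero, Finset.filter_eq_empty_iff]
    intro i hi h
    exact hcon i hi h
  simp only [Finset.sum_range_succ, Finset.sum_range_zero] at hc hs
  rw [h0, h5, hone] at hs
  rw [h0, h5, hone] at hc
  generalize (s.filter (fun i => d i = 2)).card = n2 at hs hc
  generalize (s.filter (fun i => d i = 3)).card = n3 at hs hc
  generalize (s.filter (fun i => d i = 4)).card = n4 at hs hc
  generalize (s.filter (fun i => d i = 6)).card = n6 at hs hc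
  generalize (s.filter (fun i => d i = 7)).card = n7 at hs hc
  have b7 : n7 ≤ 1 := by omega
  have b6 : n6 ≤ 1 := by omega
  have b4 : n4 ≤ 3 := by omega
  have b3 : n3 ≤ 4 := by omega
  interval_cases n7 <;> interval_cases n6 <;> interval_cases n4 <;> interval_cases n3 <;> omega

/-- The alternating group of degree 5 has an irreducible character of degree 5. -/
theorem exists_irr_degree_five :
    ∃ χ : Cfsg.IrrCharacter (alternatingGroup (Fin 5)), Cfsg.charDegree χ.1 = 5 := by
  classical
  haveI : Fintype (Cfsg.IrrCharacter (alternatingGroup (Fin 5))) := Fintype.ofFinite _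
  have hsum := Cfsg.Agent.Lib.Helper80.sum_charDegree_sq (G := alternatingGroup (Fin 5))
  have hA : Nat.card (alternatingGroup (Fin 5)) = 60 := by
    rw [nat_card_alternatingGroup]
    simp [Nat.factorial]
  rw [hA] at hsum
  have hcard : (Finset.univ : Finset (Cfsg.IrrCharacter (alternatingGroup (Fin 5)))).card ≤ 5 := by
    rw [Finset.card_univ, ← Nat.card_eq_fintype_card,
      Cfsg.Agent.Lib.Helper80.card_irr_eq_card_conjClasses]
    exact card_conjClasses_le
  have hlin := Cfsg.Agent.Lib.Helper79.card_linear_irr_le (G := alternatingGroup (Fin 5))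
  rw [commutator_eq_top, Subgroup.index_top] at hlin
  have hone : ((Finset.univ : Finset (Cfsg.IrrCharacter (alternatingGroup (Fin 5)))).filter
      (fun χ => Cfsg.charDegree χ.1 = 1)).card = 1 := by
    apply le_antisymm
    · refine le_trans (le_of_eq ?_) hlin
      rw [Nat.card_eq_fintype_card, Fintype.card_subtype]
      congr 1
      ext χ
      simp only [Finset.mem_filter, Finset.mem_univ, true_and]
      rw [Cfsg.Agent.Lib.Helper80.char_one_eq_charDegree
        (Cfsg.Agent.Lib.Helper80.isCharacter_of_isIrrCharacter χ.2)]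
      exact_mod_cast Iff.rfl
    · rw [Nat.succ_le_iff, Finset.card_pos]
      refine ⟨⟨_, Cfsg.Agent.Lib.Helper80.isIrrCharacter_one⟩, ?_⟩
      simp only [Finset.mem_filter, Finset.mem_univ, true_and]
      have h1 := Cfsg.Agent.Lib.Helper80.char_one_eq_charDegree
        (Cfsg.Agent.Lib.Helper80.isCharacter_of_isIrrCharacter
          (Cfsg.Agent.Lib.Helper80.isIrrCharacter_one (G := alternatingGroup (Fin 5))))
      exact_mod_cast h1.symm
  obtain ⟨χ, -, hχ⟩ := exists_five Finset.univ
    (fun χ : Cfsg.IrrCharacter (alternatingGroup (Fin 5)) => Cfsg.charDegree χ.1)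
    hcard hsum (fun χ _ => Cfsg.Agent.Lib.Helper80.charDegree_pos χ.2) hone
  exact ⟨χ, hχ⟩

/-- `5` is a vertex of the character degree graph of the alternating group of degree 5. -/
theorem five_mem_degreePrimes : 5 ∈ Cfsg.degreePrimes (alternatingGroup (Fin 5)) := by
  obtain ⟨χ, hχ⟩ := exists_irr_degree_five
  exact ⟨by norm_num, 5, ⟨χ, hχ⟩, dvd_refl 5⟩

end Cfsg.Agent.Lib.Helper64.A5Degrees
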