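-- helper64: arithmetic data of the principal `p`-block of a simple group with a Sylow
-- `p`-subgroup `P` of prime order and an element of prime order `q ≠ p` in `C(P)`
-- (helper91's `brauer_chars` together with the rules `k1_const` and `k1_exc`), for the block
-- orders of S0983.
import Mathlib
import Cfsg.Agent.Lib.Helper91.SSBrauer
import Cfsg.Agent.Lib.Helper91.SSK1

set_option autoImplicit false

namespace Cfsg.Agent.Lib.Helper64.BlockData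

open Cfsg Cfsg.Agent.Lib.Helper91.SS

variable {G : Type*} [Group G] [Finite G]

/-- The degrees `f i` and signs `a i` of the non-exceptional characters, the degree `f0` of an
exceptional character, and Brauer's relations, when `C(P)` contains an element of prime order
`q ≠ p`. -/
theorem block_data [IsSimpleGroup G] (hGn : ¬ (Nat.card G).Prime) (p : ℕ) [Fact p.Prime]
    (P : Sylow p G) (hP : Nat.card (P : Subgroup G) = p) (m : ℕ) (hm2 : m + 1 < p)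
    (hCN : (Subgroup.centralizer ((P : Subgroup G) : Set G)).relIndex
      (Subgroup.normalizer ((P : Subgroup G) : Set G)) = m)
    (c : G) (hc : c ∈ Subgroup.centralizer ((P : Subgroup G) : Set G)) (q : ℕ) (hq : q.Prime)
    (hqp : q ≠ p) (hcq : orderOf c = q) :
    ∃ (k : ℕ) (f : Fin k → ℕ) (a : Fin k → ℤ) (f0 : ℕ) (d δ : ℤ),
      k + 1 ≤ m ∧ (δ = 1 ∨ δ = -1) ∧
      (∀ i, a i ≠ 0 ∧ f i ∣ Nat.card G ∧ f i ^ 2 ≤ Nat.card G ∧
        ∃ n T : ℕ, 2 ≤ T ∧ ((p : ℤ) - 1) * a i ≤ (p : ℤ) * (n : ℤ) ∧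
          (f i : ℤ) + ((p : ℤ) - 1) * a i = (p : ℤ) * ((n : ℤ) + (T : ℤ))) ∧
      f0 ∣ Nat.card G ∧ f0 ^ 2 ≤ Nat.card G ∧ 2 * p ≤ f0 ∧
      ((d - δ) ^ 2 + ((((p - 1) / m : ℕ) : ℤ) - 1) * d ^ 2 + 1 + ∑ i, a i ^ 2 = (m : ℤ) + 1) ∧
      ((((p - 1) / m : ℕ) : ℤ) * d - δ) * (f0 : ℤ) + 1 + ∑ i, a i * (f i : ℤ) = 0 := by
  obtain ⟨k, χ, a, η, d, δ, hk, hδ, hχ, hη1, hηval, hnorm, hrel, -, -⟩ :=
    brauer_chars hGn p P hP m hm2 hCN
  refine ⟨k, fun i => Cfsg.charDegree (χ i : G → ℂ), a, Cfsg.charDegree (η : G → ℂ), d, δ, hk,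
    hδ, ?_, ?_, ?_, ?_, hnorm, ?_⟩
  · intro i
    obtain ⟨ha, hx1, hval⟩ := hχ i
    obtain ⟨-, -, hxdvd⟩ := Cfsg.Agent.Lib.Helper79.irr_charDegree (χ i).2
    exact ⟨ha, hxdvd, Cfsg.Agent.Lib.Helper80.charDegree_sq_le_card (χ i).2,
      k1_const hGn p (P : Subgroup G) hP (χ i) hx1 (a i) hval c hc q hq hqp hcq⟩
  · exact (Cfsg.Agent.Lib.Helper79.irr_charDegree η.2).2.2
  · exact Cfsg.Agent.Lib.Helper80.charDegree_sq_le_card η.2
  · exact k1_exc hGn p (P : Subgroup G) hP η hη1 hηval c hc q hq hqp hcq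
  · have hp1 : ¬ p ∣ orderOf (1 : G) := by
      rw [orderOf_one, Nat.dvd_one]
      exact (Fact.out : p.Prime).one_lt.ne'
    have h1 := hrel 1 hp1
    rw [(Cfsg.Agent.Lib.Helper79.irr_charDegree η.2).1] at h1
    have h2 : ∀ i, (χ i : G → ℂ) 1 = (Cfsg.charDegree (χ i : G → ℂ) : ℂ) := fun i =>
      (Cfsg.Agent.Lib.Helper79.irr_charDegree (χ i).2).1
    rw [Finset.sum_congr rfl (fun i _ => by rw [h2 i])] at h1
    show ((((p - 1) / m : ℕ) : ℤ) * d - δ) * (Cfsg.charDegree (η : G → ℂ) : ℤ) + 1 +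
      ∑ i, a i * (Cfsg.charDegree (χ i : G → ℂ) : ℤ) = 0
    obtain ⟨t, ht⟩ : ∃ t : ℕ, t = (p - 1) / m := ⟨_, rfl⟩
    rw [← ht] at h1 ⊢
    have h3 : ((((t : ℤ) * d - δ) * (Cfsg.charDegree (η : G → ℂ) : ℤ) + 1 +
        ∑ i, a i * (Cfsg.charDegree (χ i : G → ℂ) : ℤ) : ℤ) : ℂ) = ((0 : ℤ) : ℂ) := by
      push_cast
      exact h1
    exact Int.cast_injective h3

end Cfsg.Agent.Lib.Helper64.BlockData
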