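import Mathlib

set_option autoImplicit false

namespace Cfsg.Agent.Lib.Helper64.DesignLemma

open Finset

/-- `(k+1) * C(n,k+1) = (n-k) * C(n,k)` over the integers (no truncated subtraction). -/
theorem choose_succ_int (n k : ℕ) :
    ((k : ℤ) + 1) * (n.choose (k + 1) : ℤ) = ((n : ℤ) - k) * (n.choose k : ℤ) := by
  rcases le_or_gt k n with h | h
  · have h1 := Nat.choose_succ_right_eq n k
    have h2 : ((n - k : ℕ) : ℤ) = (n : ℤ) - k := Nat.cast_sub h
    have h3 : (n.choose (k + 1) : ℤ) * ((k : ℤ) + 1) = (n.choose k : ℤ) * ((n : ℤ) - k) := by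
      rw [← h2]
      exact_mod_cast h1
    linarith
  · rw [Nat.choose_eq_zero_of_lt (by omega : n < k + 1), Nat.choose_eq_zero_of_lt h]
    simp

/-- `C(·, s)` is strictly increasing on `[s, ∞)` for `s ≥ 1`. -/
theorem le_of_choose_le {v m s : ℕ} (hs : 1 ≤ s) (hv : s ≤ v) (h : v.choose s ≤ m.choose s) :
    v ≤ m := by
  by_contra hcon
  push Not at hcon
  obtain ⟨s', rfl⟩ : ∃ s', s = s' + 1 := ⟨s - 1, by omega⟩
  have h1 : (m + 1).choose (s' + 1) ≤ v.choose (s' + 1) := Nat.choose_le_choose _ hcon
  rw [Nat.choose_succ_succ'] at h1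
  have h2 : m.choose s' = 0 := by omega
  have h3 : m < s' := Nat.choose_eq_zero_iff.mp h2
  have h4 : m.choose (s' + 1) = 0 := Nat.choose_eq_zero_of_lt (by omega)
  have h5 : 0 < v.choose (s' + 1) := Nat.choose_pos hv
  omega

theorem choose_mul_choose_eq (t i a : ℕ) (hi : i ≤ t) (ha : a ≤ t + 1) :
    a.choose i * (t + 1 - a).choose (t - i) =
      (i + 1) * (if a = i + 1 then 1 else 0) + (t + 1 - i) * (if a = i then 1 else 0) := by
  rcases lt_trichotomy a i with h | h | h
  · rw [Nat.choose_eq_zero_of_lt h, if_neg (by omega), if_neg (by omega)]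
    simp
  · subst h
    rw [Nat.choose_self, if_neg (by omega), if_pos rfl,
      show t + 1 - a = (t - a) + 1 by omega, Nat.choose_succ_self_right]
    simp
  · rcases Nat.eq_or_lt_of_le (Nat.succ_le_of_lt h) with h' | h'
    · have h'' : a = i + 1 := h'.symm
      subst h''
      rw [Nat.choose_succ_self_right, if_pos rfl, if_neg (by omega),
        show t + 1 - (i + 1) = t - i by omega, Nat.choose_self]
      simp
    · rw [Nat.choose_eq_zero_of_lt (by omega : t + 1 - a < t - i), if_neg (by omega),
        if_neg (by omega)]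
      simp

/-- The number of `t`-subsets of `U` meeting `Γ` in exactly `i` points. -/
theorem card_filter_powersetCard_inter {Ω : Type*} [DecidableEq Ω] (U Γ : Finset Ω) (t i : ℕ)
    (hi : i ≤ t) :
    ((Finset.powersetCard t U).filter (fun T => (T ∩ Γ).card = i)).card =
      (U ∩ Γ).card.choose i * (U \ Γ).card.choose (t - i) := by
  rw [← Finset.card_powersetCard, ← Finset.card_powersetCard, ← Finset.card_product]
  refine Finset.card_bij' (fun T _ => (T ∩ Γ, T \ Γ)) (fun AB _ => AB.1 ∪ AB.2) ?_ ?_ ?_ ?_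
  · intro T hT
    rw [Finset.mem_filter, Finset.mem_powersetCard] at hT
    obtain ⟨⟨hTU, hTc⟩, hTi⟩ := hT
    rw [Finset.mem_product, Finset.mem_powersetCard, Finset.mem_powersetCard]
    have h1 := Finset.card_inter_add_card_sdiff T Γ
    refine ⟨⟨Finset.inter_subset_inter hTU (Finset.Subset.refl Γ), hTi⟩,
      Finset.sdiff_subset_sdiff hTU (Finset.Subset.refl Γ), ?_⟩
    show (T \ Γ).card = t - i
    omega
  · rintro ⟨A, B⟩ hAB
    rw [Finset.mem_product, Finset.mem_powersetCard, Finset.mem_powersetCard] at hAB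
    obtain ⟨⟨hA, hAc⟩, hB, hBc⟩ := hAB
    dsimp only at hA hAc hB hBc ⊢
    have hAΓ : ∀ x ∈ A, x ∈ Γ := fun x hx => (Finset.mem_inter.mp (hA hx)).2
    have hBΓ : ∀ x ∈ B, x ∉ Γ := fun x hx => (Finset.mem_sdiff.mp (hB hx)).2
    have hdis : Disjoint A B := Finset.disjoint_left.mpr fun x hxA hxB => hBΓ x hxB (hAΓ x hxA)
    have hAB : (A ∪ B) ∩ Γ = A := by
      ext x
      simp only [Finset.mem_inter, Finset.mem_union]
      constructor
      · rintro ⟨hx | hx, hxΓ⟩
        · exact hx
        · exact absurd hxΓ (hBΓ x hx)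
      · intro hx
        exact ⟨Or.inl hx, hAΓ x hx⟩
    rw [Finset.mem_filter, Finset.mem_powersetCard, hAB]
    refine ⟨⟨Finset.union_subset (hA.trans Finset.inter_subset_left)
      (hB.trans Finset.sdiff_subset), ?_⟩, hAc⟩
    rw [Finset.card_union_of_disjoint hdis, hAc, hBc]
    omega
  · intro T _
    dsimp only
    ext x
    simp only [Finset.mem_union, Finset.mem_inter, Finset.mem_sdiff]
    tauto
  · rintro ⟨A, B⟩ hAB
    rw [Finset.mem_product, Finset.mem_powersetCard, Finset.mem_powersetCard] at hAB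
    obtain ⟨⟨hA, hAc⟩, hB, hBc⟩ := hAB
    dsimp only at hA hAc hB hBc ⊢
    have hAΓ : ∀ x ∈ A, x ∈ Γ := fun x hx => (Finset.mem_inter.mp (hA hx)).2
    have hBΓ : ∀ x ∈ B, x ∉ Γ := fun x hx => (Finset.mem_sdiff.mp (hB hx)).2
    refine Prod.ext ?_ ?_
    · ext x
      simp only [Finset.mem_inter, Finset.mem_union]
      constructor
      · rintro ⟨hx | hx, hxΓ⟩
        · exact hx
        · exact absurd hxΓ (hBΓ x hx)
      · intro hx
        exact ⟨Or.inl hx, hAΓ x hx⟩
    · ext x
      simp only [Finset.mem_sdiff, Finset.mem_union]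
      constructor
      · rintro ⟨hx | hx, hxΓ⟩
        · exact absurd (hAΓ x hx) hxΓ
        · exact hx
      · intro hx
        exact ⟨Or.inr hx, hBΓ x hx⟩

/-- Double counting of pairs `T ⊆ U`, `U` a block, `T` a `t`-set meeting `Γ` in `i` points. -/
theorem double_count {Ω : Type*} [Fintype Ω] [DecidableEq Ω] (Γ : Finset Ω) (t lam : ℕ)
    (F : Finset (Finset Ω))
    (hF : ∀ U ∈ F, U.card = t + 1)
    (hreg : ∀ T : Finset Ω, T.card = t → (F.filter (fun U => T ⊆ U)).card = lam)
    (i : ℕ) (hi : i ≤ t) :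
    ∑ U ∈ F, (U ∩ Γ).card.choose i * (t + 1 - (U ∩ Γ).card).choose (t - i) =
      lam * (Γ.card.choose i * Γᶜ.card.choose (t - i)) := by
  classical
  set S := (Finset.powersetCard t (Finset.univ : Finset Ω)).filter
    (fun T => (T ∩ Γ).card = i) with hS
  have h1 : ∀ U ∈ F, (U ∩ Γ).card.choose i * (t + 1 - (U ∩ Γ).card).choose (t - i) =
      (S.filter (fun T => T ⊆ U)).card := by
    intro U hU
    have e1 : (U \ Γ).card = t + 1 - (U ∩ Γ).card := by
      have := Finset.card_inter_add_card_sdiff U Γ
      rw [hF U hU] at this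
      omega
    rw [← e1, ← card_filter_powersetCard_inter U Γ t i hi]
    congr 1
    ext T
    simp only [hS, Finset.mem_filter, Finset.mem_powersetCard, Finset.subset_univ, true_and]
    tauto
  rw [Finset.sum_congr rfl h1]
  have h2 : ∑ U ∈ F, (S.filter (fun T => T ⊆ U)).card =
      ∑ T ∈ S, (F.filter (fun U => T ⊆ U)).card := by
    simp only [Finset.card_filter]
    exact Finset.sum_comm
  rw [h2]
  have h3 : ∀ T ∈ S, (F.filter (fun U => T ⊆ U)).card = lam := by
    intro T hT
    apply hreg
    rw [hS, Finset.mem_filter, Finset.mem_powersetCard] at hT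
    exact hT.1.2
  rw [Finset.sum_congr rfl h3, Finset.sum_const, smul_eq_mul, mul_comm]
  congr 1
  rw [hS, card_filter_powersetCard_inter _ Γ t i hi, Finset.univ_inter,
    ← Finset.compl_eq_univ_sdiff]

/-- Closed form for the solution of the recurrence. -/
theorem closed_form (k w t lam : ℕ) (f : ℕ → ℤ) (hf1 : f 1 = 0)
    (hrec : ∀ i j : ℕ, i + j = t →
      ((i : ℤ) + 1) * f (i + 1) + ((j : ℤ) + 1) * f i = lam * (k.choose i * w.choose j))
    (i j : ℕ) (hij : i + j = t + 1) (hi : 1 ≤ i) :
    ((k : ℤ) + w - t) * (t + 1) * f i =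
      lam * ((t + 1) * (k.choose i) * (w.choose j) +
        (-1) ^ i * ((t + 1).choose i) * k * (w.choose t)) := by
  induction i generalizing j with
  | zero => omega
  | succ i ih =>
    rcases Nat.eq_zero_or_pos i with h0 | hpos
    · subst h0
      have hj : j = t := by omega
      subst hj
      simp only [zero_add, hf1, mul_zero, Nat.choose_one_right, pow_one]
      push_cast
      ring
    · have IH := ih (j + 1) (by omega) hpos
      have h1 := hrec i j (by omega)
      have hA := choose_succ_int k i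
      have hB := choose_succ_int w j
      have hC := choose_succ_int (t + 1) i
      have ht : (t : ℤ) = i + j := by
        have : i + j = t := by omega
        exact_mod_cast this.symm
      have hne : ((i : ℤ) + 1) ≠ 0 := by positivity
      apply mul_left_cancel₀ hne
      rw [pow_succ]
      push_cast at hC IH ⊢
      rw [ht] at hC IH ⊢
      linear_combination ((k : ℤ) + w - (i + j)) * (i + j + 1) * h1 - ((j : ℤ) + 1) * IH -
        (lam * (i + j + 1) * w.choose j) * hA - (lam * (i + j + 1) * k.choose i) * hB +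
        (lam * (-1) ^ i * k * w.choose t) * hC

/-- A `t`-design with blocks of size `t + 1` in which no block meets the nonempty set `Γ` in
exactly one point, and whose complement has at least `t` points, satisfies `|Γᶜ| ≤ |Γ|`. -/
theorem design_lemma {Ω : Type*} [Fintype Ω] [DecidableEq Ω] (Γ : Finset Ω) (t lam : ℕ)
    (F : Finset (Finset Ω)) (ht : 2 ≤ t) (hlam : 0 < lam)
    (hF : ∀ U ∈ F, U.card = t + 1)
    (hreg : ∀ T : Finset Ω, T.card = t → (F.filter (fun U => T ⊆ U)).card = lam)
    (hsub : ∀ U ∈ F, (U ∩ Γ).card ≠ 1)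
    (hk : Γ.Nonempty) (htw : t ≤ Γᶜ.card) :
    Γᶜ.card ≤ Γ.card := by
  classical
  have hk1 : 1 ≤ Γ.card := Finset.card_pos.mpr hk
  generalize hkdef : Γ.card = k at hk1 ⊢
  generalize hwdef : Γᶜ.card = w at htw ⊢
  let f : ℕ → ℕ := fun j => (F.filter (fun U => (U ∩ Γ).card = j)).card
  have hf1 : f 1 = 0 := by
    show (F.filter (fun U => (U ∩ Γ).card = 1)).card = 0
    rw [Finset.card_eq_zero, Finset.filter_eq_empty_iff]
    exact fun U hU => hsub U hU
  have hrec : ∀ i j : ℕ, i + j = t →
      (i + 1) * f (i + 1) + (j + 1) * f i = lam * (k.choose i * w.choose j) := by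
    intro i j hij
    have hi : i ≤ t := by omega
    have hj : t - i = j := by omega
    have h1 := double_count Γ t lam F hF hreg i hi
    rw [hj, hkdef, hwdef] at h1
    rw [← h1]
    have h2 : ∀ U ∈ F, (U ∩ Γ).card.choose i * (t + 1 - (U ∩ Γ).card).choose j =
        (i + 1) * (if (U ∩ Γ).card = i + 1 then 1 else 0) +
          (j + 1) * (if (U ∩ Γ).card = i then 1 else 0) := by
      intro U hU
      have ha : (U ∩ Γ).card ≤ t + 1 := by
        rw [← hF U hU]
        exact Finset.card_le_card Finset.inter_subset_left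
      have h3 := choose_mul_choose_eq t i (U ∩ Γ).card hi ha
      rw [hj] at h3
      rw [h3, show t + 1 - i = j + 1 by omega]
    rw [Finset.sum_congr rfl h2, Finset.sum_add_distrib, ← Finset.mul_sum, ← Finset.mul_sum,
      ← Finset.card_filter, ← Finset.card_filter]
  have hrecZ : ∀ i j : ℕ, i + j = t →
      ((i : ℤ) + 1) * (f (i + 1) : ℤ) + ((j : ℤ) + 1) * (f i : ℤ) =
        (lam : ℤ) * ((k.choose i : ℤ) * (w.choose j : ℤ)) := by
    intro i j hij
    exact_mod_cast hrec i j hij
  have hcf := closed_form k w t lam (fun i => (f i : ℤ)) (by simp [hf1]) hrecZ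
  have hpos : (0 : ℤ) < (k : ℤ) + w - t := by
    have h1 : (t : ℤ) ≤ w := by exact_mod_cast htw
    have h2 : (1 : ℤ) ≤ k := by exact_mod_cast hk1
    linarith
  have hl : (0 : ℤ) < lam := by exact_mod_cast hlam
  rcases Nat.even_or_odd t with hev | hodd
  · -- `i = t + 1`, `j = 0`
    have h := hcf (t + 1) 0 (by omega) (by omega)
    rw [Nat.choose_zero_right, Nat.choose_self, Odd.neg_one_pow hev.add_one] at h
    have h0 : (0 : ℤ) ≤ ((k : ℤ) + w - t) * (t + 1) * (f (t + 1) : ℤ) :=
      mul_nonneg (mul_nonneg hpos.le (by positivity)) (by positivity)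
    rw [h] at h0
    have h1 := nonneg_of_mul_nonneg_right h0 hl
    have hN : k * w.choose t ≤ (t + 1) * k.choose (t + 1) := by
      have : ((k * w.choose t : ℕ) : ℤ) ≤ (((t + 1) * k.choose (t + 1) : ℕ) : ℤ) := by
        push_cast at h1 ⊢
        linarith
      exact_mod_cast this
    have h2 := Nat.add_one_mul_choose_eq (k - 1) t
    rw [show k - 1 + 1 = k by omega] at h2
    have h3 : w.choose t ≤ (k - 1).choose t := by
      have : k * w.choose t ≤ k * (k - 1).choose t := by
        rw [h2]
        linarith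
      exact Nat.le_of_mul_le_mul_left this hk1
    have h4 := le_of_choose_le (by omega) htw h3
    omega
  · -- `i = t`, `j = 1`
    have h := hcf t 1 (by omega) (by omega)
    rw [Nat.choose_one_right, Odd.neg_one_pow hodd, Nat.choose_succ_self_right] at h
    have h0 : (0 : ℤ) ≤ ((k : ℤ) + w - t) * (t + 1) * (f t : ℤ) :=
      mul_nonneg (mul_nonneg hpos.le (by positivity)) (by positivity)
    rw [h] at h0
    have h1 := nonneg_of_mul_nonneg_right h0 hl
    have hN : k * w.choose t ≤ w * k.choose t := by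
      have ht1 : (0 : ℤ) < (t : ℤ) + 1 := by positivity
      have : ((k * w.choose t : ℕ) : ℤ) ≤ ((w * k.choose t : ℕ) : ℤ) := by
        push_cast at h1 ⊢
        have h5 : (0 : ℤ) ≤ ((t : ℤ) + 1) * ((w : ℤ) * (k.choose t : ℤ) - k * w.choose t) := by
          linarith
        have h6 := nonneg_of_mul_nonneg_right h5 ht1
        linarith
      exact_mod_cast this
    have h2 := Nat.add_one_mul_choose_eq (k - 1) (t - 1)
    rw [show k - 1 + 1 = k by omega, show t - 1 + 1 = t by omega] at h2
    have h2' := Nat.add_one_mul_choose_eq (w - 1) (t - 1)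
    rw [show w - 1 + 1 = w by omega, show t - 1 + 1 = t by omega] at h2'
    have h3 : (w - 1).choose (t - 1) ≤ (k - 1).choose (t - 1) := by
      have h7 : (k * w) * (w - 1).choose (t - 1) ≤ (k * w) * (k - 1).choose (t - 1) := by
        calc (k * w) * (w - 1).choose (t - 1) = k * (w * (w - 1).choose (t - 1)) := by ring
          _ = (k * w.choose t) * t := by rw [h2']; ring
          _ ≤ (w * k.choose t) * t := Nat.mul_le_mul_right t hN
          _ = w * (k * (k - 1).choose (t - 1)) := by rw [h2]; ring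
          _ = (k * w) * (k - 1).choose (t - 1) := by ring
      exact Nat.le_of_mul_le_mul_left h7 (Nat.mul_pos hk1 (by omega))
    have h4 := le_of_choose_le (by omega) (by omega) h3
    omega

end Cfsg.Agent.Lib.Helper64.DesignLemma
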