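import Mathlib
import Cfsg.Agent.S4219
import Cfsg.Agent.Lib.Helper21.MTBasic
import Cfsg.Agent.Lib.Helper21.MTSetup
import Cfsg.Agent.Lib.Helper21.MTSharp

set_option autoImplicit false

namespace Cfsg.Agent.Lib.Helper64.MTCaseA

open MulAction

/-- `g` acts on the tuple `x` as the permutation `τ` of the indices. -/
def Agr {G α : Type*} [Group G] [MulAction G α] {r : ℕ} (x : Fin r → α) (g : G)
    (τ : Equiv.Perm (Fin r)) : Prop := ∀ i, g • x i = x (τ i)

section agr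
variable {G α : Type*} [Group G] [MulAction G α] {r : ℕ} {x : Fin r → α} {g h : G}
  {σ τ : Equiv.Perm (Fin r)}

theorem Agr.mul (hg : Agr x g σ) (hh : Agr x h τ) : Agr x (g * h) (σ * τ) := by
  intro i
  rw [mul_smul, hh i, hg (τ i)]
  rfl

theorem Agr.one : Agr x (1 : G) 1 := by
  intro i
  simp

theorem Agr.inv (hg : Agr x g σ) : Agr x g⁻¹ σ⁻¹ := by
  intro i
  rw [inv_smul_eq_iff, hg (σ⁻¹ i)]
  simp

theorem Agr.pow (hg : Agr x g σ) (n : ℕ) : Agr x (g ^ n) (σ ^ n) := by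
  induction n with
  | zero => simpa using (Agr.one (x := x) (G := G))
  | succ n ih => rw [pow_succ, pow_succ]; exact ih.mul hg

theorem Agr.not_range (hg : Agr x g σ) {y : α} (hy : y ∉ Set.range x) :
    g • y ∉ Set.range x := by
  rintro ⟨i, hi⟩
  apply hy
  refine ⟨σ⁻¹ i, ?_⟩
  have h1 := hg.inv i
  rw [← h1, hi, inv_smul_smul]

theorem Agr.inj (hx : Function.Injective x) (hg : Agr x g σ) (hg' : Agr x g τ) : σ = τ :=
  Equiv.ext fun i => hx ((hg i).symm.trans (hg' i))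

end agr

theorem mem_orbit_sub {G α : Type*} [Group G] [MulAction G α] (Q : Subgroup G) (y y' : α) :
    y' ∈ orbit Q y ↔ ∃ q ∈ Q, q • y = y' := by
  constructor
  · rintro ⟨q, rfl⟩
    exact ⟨q.1, q.2, rfl⟩
  · rintro ⟨q, hq, rfl⟩
    exact ⟨⟨q, hq⟩, rfl⟩

/-- If `Q` is cyclic, commutators of elements of its normalizer centralize it. -/
theorem comm_mem_centralizer {G : Type*} [Group G] (Q : Subgroup G) (a : G) (ha : a ∈ Q)
    (hgen : ∀ q ∈ Q, ∃ n : ℤ, a ^ n = q) (g h : G)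
    (hg : g ∈ Subgroup.normalizer (Q : Set G)) (hh : h ∈ Subgroup.normalizer (Q : Set G)) :
    g⁻¹ * h⁻¹ * g * h ∈ Subgroup.centralizer (Q : Set G) := by
  obtain ⟨i, hi⟩ := hgen _ ((Subgroup.mem_normalizer_iff.mp hg a).mp ha)
  obtain ⟨j, hj⟩ := hgen _ ((Subgroup.mem_normalizer_iff.mp hh a).mp ha)
  have key : g * h * a * h⁻¹ * g⁻¹ = h * g * a * g⁻¹ * h⁻¹ := by
    have e1 : g * h * a * h⁻¹ * g⁻¹ = g * (h * a * h⁻¹) * g⁻¹ := by group
    have e2 : h * g * a * g⁻¹ * h⁻¹ = h * (g * a * g⁻¹) * h⁻¹ := by group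
    rw [e1, e2, ← hj, ← hi, ← conj_zpow, ← conj_zpow, ← hi, ← hj, ← zpow_mul, ← zpow_mul,
      mul_comm]
  have hc : (g⁻¹ * h⁻¹ * g * h) * a = a * (g⁻¹ * h⁻¹ * g * h) := by
    calc (g⁻¹ * h⁻¹ * g * h) * a = g⁻¹ * h⁻¹ * (g * h * a * h⁻¹ * g⁻¹) * (g * h) := by group
      _ = g⁻¹ * h⁻¹ * (h * g * a * g⁻¹ * h⁻¹) * (g * h) := by rw [key]
      _ = a * (g⁻¹ * h⁻¹ * g * h) := by group
  rw [Subgroup.mem_centralizer_iff]
  intro q hq
  obtain ⟨n, rfl⟩ := hgen q hq
  exact ((Commute.zpow_right (show Commute (g⁻¹ * h⁻¹ * g * h) a from hc) n).eq).symm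

/-- Every even permutation of the indices lifts to an element of the centralizer. -/
theorem lift_alt {G α : Type*} [Group G] [MulAction G α] {r : ℕ} (x : Fin r → α)
    (Q : Subgroup G) (a : G) (ha : a ∈ Q) (hgen : ∀ q ∈ Q, ∃ n : ℤ, a ^ n = q)
    (hlift : ∀ τ : Equiv.Perm (Fin r), ∃ g ∈ Subgroup.normalizer (Q : Set G), Agr x g τ)
    (τ : Equiv.Perm (Fin r)) (hτ : τ ∈ alternatingGroup (Fin r)) :
    ∃ c ∈ Subgroup.centralizer (Q : Set G), Agr x c τ := by
  let Y0 : Subgroup (Equiv.Perm (Fin r)) :=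
    { carrier := {τ | ∃ c ∈ Subgroup.centralizer (Q : Set G), Agr x c τ}
      mul_mem' := by
        rintro σ τ ⟨c, hc, hcσ⟩ ⟨d, hd, hdτ⟩
        exact ⟨c * d, mul_mem hc hd, hcσ.mul hdτ⟩
      one_mem' := ⟨1, one_mem _, Agr.one⟩
      inv_mem' := by
        rintro σ ⟨c, hc, hcσ⟩
        exact ⟨c⁻¹, inv_mem hc, hcσ.inv⟩ }
  have h3 : ∀ t : Equiv.Perm (Fin r), t.IsThreeCycle → t ∈ Y0 := by
    intro t ht
    have hconj : IsConj t t⁻¹ := by
      rw [Equiv.Perm.isConj_iff_cycleType_eq]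
      exact ht.trans ht.inv.symm
    obtain ⟨ρ, hρ⟩ := isConj_iff.mp hconj
    obtain ⟨g1, hg1, hag1⟩ := hlift ρ
    obtain ⟨g2, hg2, hag2⟩ := hlift t
    have hc := comm_mem_centralizer Q a ha hgen g1 g2 hg1 hg2
    have hag : Agr x (g1⁻¹ * g2⁻¹ * g1 * g2) (ρ⁻¹ * t⁻¹ * ρ * t) :=
      ((hag1.inv.mul hag2.inv).mul hag1).mul hag2
    have e1 : ρ⁻¹ * t⁻¹ * ρ * t = t * t := by
      rw [← hρ]; group
    have h2 : t * t ∈ Y0 := ⟨_, hc, e1 ▸ hag⟩
    have e2 : t = (t * t)⁻¹ := by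
      have h3 : t ^ 3 = 1 := by rw [← ht.orderOf]; exact pow_orderOf_eq_one t
      rw [eq_inv_iff_mul_eq_one, ← h3, pow_succ, pow_two, mul_assoc]
    rw [e2]
    exact inv_mem h2
  have hle : alternatingGroup (Fin r) ≤ Y0 := by
    rw [← Equiv.Perm.closure_three_cycles_eq_alternating, Subgroup.closure_le]
    exact fun t ht => h3 t ht
  exact hle hτ

/-- Pigeonhole: some nontrivial even permutation of the indices has a lift in the centralizer
that preserves every `Q`-orbit outside the tuple. -/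
theorem exists_orbit_preserving {G α : Type*} [Group G] [Fintype α] [DecidableEq α]
    [MulAction G α] {k p r : ℕ}
    (hp : 0 < p) (hn : Fintype.card α = k * p + r) (hkr : k < r) (hr : 3 ≤ r)
    (x : Fin r ↪ α) (Q : Subgroup G)
    (hfix : ∀ q ∈ Q, ∀ i, q • x i = x i)
    (hfree : ∀ q ∈ Q, ∀ y, y ∉ Set.range x → q • y = y → q = 1)
    (hcardQ : Nat.card Q = p)
    (hY0 : ∀ τ ∈ alternatingGroup (Fin r), ∃ c ∈ Subgroup.centralizer (Q : Set G), Agr x c τ) :
    ∃ z ∈ Subgroup.centralizer (Q : Set G), ∃ τ : Equiv.Perm (Fin r), τ ≠ 1 ∧ Agr x z τ ∧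
      ∀ y, y ∉ Set.range x → ∃ q ∈ Q, q • y = z • y := by
  classical
  let rep : α → α := fun y => (Quotient.mk (orbitRel Q α) y).out
  have hrep1 : ∀ y, ∃ q ∈ Q, q • y = rep y := by
    intro y
    have h1 : rep y ∈ orbit Q y := Quotient.mk_out (s := orbitRel Q α) y
    exact (mem_orbit_sub Q y _).mp h1
  have hrep2 : ∀ y q, q ∈ Q → rep (q • y) = rep y := by
    intro y q hq
    have h1 : q • y ∈ orbit Q y := (mem_orbit_sub Q y _).mpr ⟨q, hq, rfl⟩
    exact congrArg Quotient.out (Quotient.sound (s := orbitRel Q α) h1)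
  have hrep3 : ∀ u v, rep u = rep v → ∃ q ∈ Q, q • v = u := by
    intro u v huv
    obtain ⟨q1, hq1, e1⟩ := hrep1 u
    obtain ⟨q2, hq2, e2⟩ := hrep1 v
    refine ⟨q1⁻¹ * q2, mul_mem (inv_mem hq1) hq2, ?_⟩
    rw [mul_smul, e2, ← huv, ← e1, inv_smul_smul]
  have hrep4 : ∀ y, rep (rep y) = rep y := by
    intro y
    obtain ⟨q, hq, e⟩ := hrep1 y
    rw [← e, hrep2 y q hq]
    exact e.symm
  have hQR : ∀ q ∈ Q, ∀ y, y ∉ Set.range x → q • y ∉ Set.range x := by
    rintro q hq y hy ⟨i, hi⟩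
    apply hy
    refine ⟨i, ?_⟩
    have h1 := hfix q⁻¹ (inv_mem hq) i
    rw [← h1, hi, inv_smul_smul]
  have hrepR : ∀ y, y ∉ Set.range x → rep y ∉ Set.range x := by
    intro y hy
    obtain ⟨q, hq, e⟩ := hrep1 y
    rw [← e]
    exact hQR q hq y hy
  have hrepC : ∀ c ∈ Subgroup.centralizer (Q : Set G), ∀ y, rep (c • rep y) = rep (c • y) := by
    intro c hc y
    obtain ⟨q, hq, e⟩ := hrep1 y
    rw [← e, ← mul_smul, ← Subgroup.mem_centralizer_iff.mp hc q hq, mul_smul, hrep2 _ q hq]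
  have hinj : ∀ c ∈ Subgroup.centralizer (Q : Set G), ∀ t t' : α,
      rep (c • t) = rep (c • t') → rep t = rep t' := by
    intro c hc t t' h
    obtain ⟨q, hq, e⟩ := hrep3 _ _ h
    have e' : t = q • t' := by
      have h1 : c • t = c • (q • t') := by
        rw [← e, ← mul_smul, ← mul_smul, Subgroup.mem_centralizer_iff.mp hc q hq]
      exact smul_left_cancel c h1
    rw [e', hrep2 t' q hq]
  let T := {t : α // t ∉ Set.range x ∧ rep t = t}
  choose cl hcl hclA using (fun τ : alternatingGroup (Fin r) => hY0 τ.1 τ.2)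
  let E : alternatingGroup (Fin r) → (T ↪ T) := fun τ =>
    ⟨fun t => ⟨rep (cl τ • t.1), hrepR _ ((hclA τ).not_range t.2.1), hrep4 _⟩, by
      intro t t' h
      have h1 := hinj _ (hcl τ) t.1 t'.1 (congrArg Subtype.val h)
      exact Subtype.ext (t.2.2.symm.trans (h1.trans t'.2.2))⟩
  -- counting
  have hT : Fintype.card T ≤ k := by
    let f : T × Q → ((Set.range x)ᶜ : Set α) := fun tq =>
      ⟨(tq.2 : G) • tq.1.1, hQR _ tq.2.2 _ tq.1.2.1⟩
    have hf : Function.Injective f := by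
      rintro ⟨t, q⟩ ⟨t', q'⟩ h
      have h1 : (q : G) • t.1 = (q' : G) • t'.1 := congrArg Subtype.val h
      have h2 : t'.1 = ((q' : G)⁻¹ * (q : G)) • t.1 := by
        rw [mul_smul, h1, inv_smul_smul]
      have h3 : t'.1 = t.1 := by
        have := hrep2 t.1 ((q' : G)⁻¹ * (q : G)) (mul_mem (inv_mem q'.2) q.2)
        rw [← h2, t'.2.2, t.2.2] at this
        exact this
      have h4 : ((q' : G)⁻¹ * (q : G)) = 1 :=
        hfree _ (mul_mem (inv_mem q'.2) q.2) t.1 t.2.1 (by rw [← h2, h3])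
      have h5 : (q : G) = (q' : G) := (inv_mul_eq_one.mp h4).symm
      exact Prod.ext (Subtype.ext h3.symm) (Subtype.ext h5)
    have h1 := Nat.card_le_card_of_injective f hf
    rw [Nat.card_prod, hcardQ, Nat.card_eq_fintype_card, Nat.card_coe_set_eq,
      Cfsg.Agent.Lib.Helper21.MTSetup.ncard_compl_range, hn, Nat.add_sub_cancel] at h1
    exact Nat.le_of_mul_le_mul_right h1 hp
  have : Nontrivial (Fin r) := Fin.nontrivial_iff_two_le.mpr (by omega)
  have hcard : Nat.card (T ↪ T) < Nat.card (alternatingGroup (Fin r)) := by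
    have h1 : Nat.card (T ↪ T) = (Fintype.card T).factorial := by
      rw [Nat.card_eq_fintype_card, Fintype.card_embedding_eq, Nat.descFactorial_self]
    have h2 : 2 * Nat.card (alternatingGroup (Fin r)) = r.factorial := by
      rw [two_mul_nat_card_alternatingGroup, Nat.card_eq_fintype_card, Fintype.card_perm,
        Fintype.card_fin]
    have h3 : (Fintype.card T).factorial ≤ (r - 1).factorial :=
      Nat.factorial_le (by omega)
    have h4 : r * (r - 1).factorial = r.factorial := Nat.mul_factorial_pred (by omega)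
    have h5 : 0 < (r - 1).factorial := Nat.factorial_pos _
    nlinarith
  rw [Nat.card_eq_fintype_card, Nat.card_eq_fintype_card] at hcard
  obtain ⟨τ1, τ2, hne, hE⟩ := Fintype.exists_ne_map_eq_of_card_lt E hcard
  refine ⟨(cl τ2)⁻¹ * cl τ1, mul_mem (inv_mem (hcl τ2)) (hcl τ1), τ2.1⁻¹ * τ1.1, ?_,
    (hclA τ2).inv.mul (hclA τ1), ?_⟩
  · intro h
    apply hne
    exact Subtype.ext (inv_mul_eq_one.mp h).symm
  · intro y hy
    have ht : rep y ∉ Set.range x ∧ rep (rep y) = rep y := ⟨hrepR y hy, hrep4 y⟩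
    have h1 : rep (cl τ1 • rep y) = rep (cl τ2 • rep y) :=
      congrArg Subtype.val (DFunLike.congr_fun hE (⟨rep y, ht⟩ : T))
    obtain ⟨q, hq, e⟩ := hrep3 _ _ h1
    -- z • t = q • t
    have hzt : ((cl τ2)⁻¹ * cl τ1) • rep y = q • rep y := by
      rw [mul_smul, ← e, ← mul_smul, ← mul_smul, mul_assoc,
        Subgroup.mem_centralizer_iff.mp (hcl τ2) q hq, inv_mul_cancel_left]
    obtain ⟨q0, hq0, e0⟩ := hrep1 y
    refine ⟨q0⁻¹ * q * q0, mul_mem (mul_mem (inv_mem hq0) hq) hq0, ?_⟩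
    have hz : (cl τ2)⁻¹ * cl τ1 ∈ Subgroup.centralizer (Q : Set G) :=
      mul_mem (inv_mem (hcl τ2)) (hcl τ1)
    rw [mul_smul, mul_smul, e0, ← hzt, ← mul_smul,
      Subgroup.mem_centralizer_iff.mp hz q0⁻¹ (inv_mem hq0), mul_smul, ← e0, inv_smul_smul]

theorem core {α : Type*} [Fintype α] [DecidableEq α] (G : Subgroup (Equiv.Perm α)) {k p r : ℕ}
    (hp : p.Prime) (hn : Fintype.card α = k * p + r) (hk : 1 ≤ k) (hkr : k < r) (hr : 3 ≤ r)
    (hp3 : p ≠ 3) (hrp : r < p ∨ 5 ≤ r)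
    (hG : MulAction.IsMultiplyPretransitive G α (r + 1))
    (x : Fin r ↪ α) (Q : Subgroup G)
    (hfix : ∀ q ∈ Q, ∀ i, q • x i = x i)
    (hfree : ∀ q ∈ Q, ∀ y, y ∉ Set.range x → q • y = y → q = 1)
    (hexp : ∀ q ∈ Q, q ^ p = 1)
    (hcardQ : Nat.card Q = p)
    (hlift : ∀ τ : Equiv.Perm (Fin r), ∃ g ∈ Subgroup.normalizer (Q : Set G), Agr x g τ) :
    alternatingGroup α ≤ G := by
  classical
  have : Fact p.Prime := ⟨hp⟩
  have : IsCyclic Q := isCyclic_of_prime_card hcardQ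
  obtain ⟨a0, ha0⟩ := IsCyclic.exists_generator (α := Q)
  have hgen : ∀ q ∈ Q, ∃ n : ℤ, (a0 : G) ^ n = q := by
    intro q hq
    obtain ⟨n, hn⟩ := Subgroup.mem_zpowers_iff.mp (ha0 ⟨q, hq⟩)
    exact ⟨n, by simpa using congrArg Subtype.val hn⟩
  have hY0 := lift_alt (x := x) Q a0 a0.2 hgen hlift
  obtain ⟨z0, hz0, τ0, hτ0, hA0, horb0⟩ :=
    exists_orbit_preserving hp.pos hn hkr hr x Q hfix hfree hcardQ hY0
  -- the normal subgroup `Y`
  let Y : Subgroup (Equiv.Perm (Fin r)) :=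
    { carrier := {τ | ∃ z ∈ Subgroup.centralizer (Q : Set G), Agr x z τ ∧
        ∀ y, y ∉ Set.range x → ∃ q ∈ Q, q • y = z • y}
      mul_mem' := by
        rintro σ τ ⟨z1, hz1, hA1, ho1⟩ ⟨z2, hz2, hA2, ho2⟩
        refine ⟨z1 * z2, mul_mem hz1 hz2, hA1.mul hA2, fun y hy => ?_⟩
        obtain ⟨q2, hq2, e2⟩ := ho2 y hy
        have hy2 : z2 • y ∉ Set.range x := hA2.not_range hy
        obtain ⟨q1, hq1, e1⟩ := ho1 (z2 • y) hy2
        exact ⟨q1 * q2, mul_mem hq1 hq2, by rw [mul_smul, mul_smul, e2, e1]⟩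
      one_mem' := ⟨1, one_mem _, Agr.one, fun y _ => ⟨1, one_mem _, rfl⟩⟩
      inv_mem' := by
        rintro σ ⟨z, hz, hA, ho⟩
        refine ⟨z⁻¹, inv_mem hz, hA.inv, fun y hy => ?_⟩
        have hy' : z⁻¹ • y ∉ Set.range x := hA.inv.not_range hy
        obtain ⟨q, hq, e⟩ := ho (z⁻¹ • y) hy'
        exact ⟨q⁻¹, inv_mem hq, by rw [inv_smul_eq_iff, e, smul_inv_smul]⟩ }
  have hYn : Y.Normal := by
    constructor
    rintro τ ⟨z, hz, hA, ho⟩ σ
    obtain ⟨g, hg, hAg⟩ := hlift σ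
    refine ⟨g * z * g⁻¹, ?_, (hAg.mul hA).mul hAg.inv, ?_⟩
    · rw [Subgroup.mem_centralizer_iff]
      intro q hq
      have hq' : g⁻¹ * q * g ∈ Q := by
        have := (Subgroup.mem_normalizer_iff.mp (inv_mem hg) q).mp hq
        simpa using this
      have e := Subgroup.mem_centralizer_iff.mp hz _ hq'
      calc q * (g * z * g⁻¹) = g * (g⁻¹ * q * g * z) * g⁻¹ := by group
        _ = g * (z * (g⁻¹ * q * g)) * g⁻¹ := by rw [e]
        _ = g * z * g⁻¹ * q := by group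
    · intro y hy
      have hy' : g⁻¹ • y ∉ Set.range x := hAg.inv.not_range hy
      obtain ⟨q, hq, e⟩ := ho _ hy'
      refine ⟨g * q * g⁻¹, (Subgroup.mem_normalizer_iff.mp hg q).mp hq, ?_⟩
      rw [mul_smul, mul_smul, mul_smul, mul_smul, e]
  have hτ0Y : τ0 ∈ Y := ⟨z0, hz0, hA0, horb0⟩
  -- an element of `Y` whose `p`-th power is nontrivial
  have hy0 : ∃ y0 ∈ Y, y0 ^ p ≠ 1 := by
    rcases hrp with hrp | hr5
    · refine ⟨τ0, hτ0Y, fun h => ?_⟩
      have h1 : orderOf τ0 ∣ p := orderOf_dvd_of_pow_eq_one h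
      rcases (Nat.dvd_prime hp).mp h1 with h2 | h2
      · exact hτ0 (orderOf_eq_one_iff.mp h2)
      · have h3 : orderOf τ0 ∣ Fintype.card (Equiv.Perm (Fin r)) := orderOf_dvd_card
        rw [h2, Fintype.card_perm, Fintype.card_fin] at h3
        have := (hp.dvd_factorial).mp h3
        omega
    · have hnt : Nontrivial Y := by
        rw [Subgroup.nontrivial_iff_exists_ne_one]
        exact ⟨τ0, hτ0Y, hτ0⟩
      have hle : alternatingGroup (Fin r) ≤ Y :=
        Equiv.Perm.alternatingGroup_le_of_normal (by rw [Nat.card_fin]; exact hr5) hnt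
      have h3c : (Equiv.swap (⟨0, by omega⟩ : Fin r) ⟨1, by omega⟩ *
          Equiv.swap (⟨0, by omega⟩ : Fin r) ⟨2, by omega⟩).IsThreeCycle :=
        Equiv.Perm.isThreeCycle_swap_mul_swap_same (by simp [Fin.ext_iff])
          (by simp [Fin.ext_iff]) (by simp [Fin.ext_iff])
      refine ⟨_, hle h3c.mem_alternatingGroup, fun h => ?_⟩
      have h1 := orderOf_dvd_of_pow_eq_one h
      rw [h3c.orderOf] at h1
      exact hp3 ((Nat.prime_dvd_prime_iff_eq Nat.prime_three hp).mp h1).symm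
  obtain ⟨y0, ⟨z, hz, hAz, horbz⟩, hy0p⟩ := hy0
  have hw1 : z ^ p ≠ 1 := by
    intro h
    apply hy0p
    have h1 : Agr x (z ^ p) (y0 ^ p) := hAz.pow p
    rw [h] at h1
    exact Agr.inj x.injective h1 Agr.one
  have hwfix : ∀ y, y ∉ Set.range x → (z ^ p) • y = y := by
    intro y hy
    obtain ⟨q, hq, hqy⟩ := horbz y hy
    have hc : Commute z q := (Subgroup.mem_centralizer_iff.mp hz q hq).symm
    rw [Cfsg.Agent.Lib.Helper21.MTBasic.pow_smul_eq_of_commute z q hc y hqy.symm p, hexp q hq,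
      one_smul]
  have hkp1 : 1 ≤ k * p := Nat.mul_pos hk hp.pos
  apply Cfsg.Agent.Lib.Helper21.MTSharp.alt_le_of_support G hr (by omega) hG (z ^ p) hw1
  have hsub : ((z ^ p : G) : Equiv.Perm α).support ⊆ Finset.univ.map x := by
    intro y hy
    rw [Equiv.Perm.mem_support] at hy
    by_contra hyr
    apply hy
    have hyr' : y ∉ Set.range x := by
      rintro ⟨i, rfl⟩
      exact hyr (Finset.mem_map_of_mem _ (Finset.mem_univ i))
    exact hwfix y hyr'
  have h1 := Finset.card_le_card hsub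
  rw [Finset.card_map, Finset.card_univ, Fintype.card_fin] at h1
  omega

/-- Case A of the theorem on `(r+1)`-transitive groups of degree `kp + r`: no nontrivial
element of order `p` fixes `r + 1` points. -/
theorem case_A {α : Type*} [Fintype α] [DecidableEq α] (G : Subgroup (Equiv.Perm α)) {k p r : ℕ} (hp : p.Prime) (hn : Fintype.card α = k * p + r) (hk : 1 ≤ k) (hkp : k < p) (hkr : k < r) (hr : 3 ≤ r) (hp3 : p ≠ 3) (hrp : r < p ∨ 5 ≤ r) (hG : MulAction.IsMultiplyPretransitive G α (r + 1)) (H1 : ∀ g : G, g ≠ 1 → g ^ p = 1 → ∀ x : Fin (r + 1) ↪ α, g ∉ MulAction.stabilizer G x) : alternatingGroup α ≤ G := by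
  classical
  have : Fact p.Prime := ⟨hp⟩
  have hkp1 : 1 ≤ k * p := Nat.mul_pos hk hp.pos
  obtain ⟨x⟩ : Nonempty (Fin r ↪ α) :=
    Function.Embedding.nonempty_of_card_le (by rw [Fintype.card_fin]; omega)
  obtain ⟨P⟩ : Nonempty (Sylow p (stabilizer G x)) := inferInstance
  obtain ⟨horb, hcomm, hexp⟩ := Cfsg.Agent.Lib.Helper21.MTSetup.setup G hn hkp hG x P
  have hfix : ∀ q ∈ Cfsg.Agent.Lib.Helper21.MTSetup.sylG G x P, ∀ i, q • x i = x i :=
    fun q hq i => Cfsg.Agent.Lib.Helper21.MTSetup.sylG_fix G x P q hq i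
  have hfree : ∀ q ∈ Cfsg.Agent.Lib.Helper21.MTSetup.sylG G x P, ∀ y, y ∉ Set.range x →
      q • y = y → q = 1 := by
    intro q hq y hy hqy
    by_contra hne
    apply H1 q hne (hexp q hq) (Cfsg.Agent.Lib.Helper21.MTSetup.consEmb x y hy)
    rw [Cfsg.Agent.Lib.Helper21.MTSetup.mem_stab_iff]
    intro i
    refine Fin.cases ?_ (fun j => ?_) i
    · simpa [Cfsg.Agent.Lib.Helper21.MTSetup.consEmb] using hqy
    · simpa [Cfsg.Agent.Lib.Helper21.MTSetup.consEmb] using hfix q hq j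
  have hcardQ : Nat.card (Cfsg.Agent.Lib.Helper21.MTSetup.sylG G x P) = p := by
    have hne : ((Set.range x)ᶜ : Set α).Nonempty := by
      rw [← Set.ncard_pos, Cfsg.Agent.Lib.Helper21.MTSetup.ncard_compl_range, hn]
      omega
    obtain ⟨y, hy⟩ := hne
    have hstab : stabilizer (Cfsg.Agent.Lib.Helper21.MTSetup.sylG G x P) y = ⊥ := by
      rw [Subgroup.eq_bot_iff_forall]
      intro q hq
      have := hfree q.1 q.2 y hy hq
      exact Subtype.ext this
    have h1 := MulAction.index_stabilizer (Cfsg.Agent.Lib.Helper21.MTSetup.sylG G x P) y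
    rw [hstab, Subgroup.index_bot, ← Nat.card_coe_set_eq, horb y hy] at h1
    exact h1
  have hlift : ∀ τ : Equiv.Perm (Fin r), ∃ g ∈ Subgroup.normalizer
      ((Cfsg.Agent.Lib.Helper21.MTSetup.sylG G x P : Subgroup G) : Set G), Agr x g τ := by
    intro τ
    have : IsMultiplyPretransitive G α (r + 1) := hG
    have hGr : IsMultiplyPretransitive G α r :=
      isMultiplyPretransitive_of_le (n := r + 1) (by omega)
        (by rw [Nat.card_eq_fintype_card]; omega)
    have ha : ∀ i, x i ∈ MulAction.fixedPoints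
        ((P : Subgroup (MulAction.stabilizer G x)).map (MulAction.stabilizer G x).subtype) α := by
      intro i
      rw [mem_fixedPoints]
      intro q
      exact hfix q.1 q.2 i
    have hb : ∀ i, (τ.toEmbedding.trans x) i ∈ MulAction.fixedPoints
        ((P : Subgroup (MulAction.stabilizer G x)).map (MulAction.stabilizer G x).subtype) α := by
      intro i
      rw [mem_fixedPoints]
      intro q
      exact hfix q.1 q.2 (τ i)
    obtain ⟨g, hg, hgx⟩ := Cfsg.Agent.S4219.result hGr x P x (τ.toEmbedding.trans x) ha hb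
    exact ⟨g, hg, fun i => by simpa using DFunLike.congr_fun hgx i⟩
  exact core G hp hn hk hkr hr hp3 hrp hG x (Cfsg.Agent.Lib.Helper21.MTSetup.sylG G x P) hfix hfree
    hexp hcardQ hlift

end Cfsg.Agent.Lib.Helper64.MTCaseA
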