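-- helper64: no non-abelian simple group has order 5148 = 2^2 * 3^2 * 11 * 13 (a block order of
-- S0983, for helper91): p = 11, [N(P) : C(P)] = 2, |C(P)| = 33.
import Mathlib
import Cfsg.Agent.Lib.Helper91.SO2Wrap
import Cfsg.Agent.Lib.Helper64.BlockData

set_option autoImplicit false

namespace Cfsg.Agent.Lib.Helper64.Ord5148

open Cfsg.Agent.Lib.Helper17 Cfsg.Agent.Lib.Helper93.SO Cfsg.Agent.Lib.Helper91.SO2
  Cfsg.Agent.Lib.Helper64.BlockData

universe u

/-- no divisor of `5148` is an admissible degree of a non-exceptional character -/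
theorem arith_5148 (f : ℕ) (hf : f ∣ 5148) (hsq : f ^ 2 ≤ 5148) :
    ¬ (23 ≤ f ∧ f % 11 = 1) ∧ ¬ (32 ≤ f ∧ f % 11 = 10) := by
  have hf' : f ∈ Nat.divisors 5148 := Nat.mem_divisors.mpr ⟨hf, by norm_num⟩
  have key : ∀ f ∈ Nat.divisors 5148, f ^ 2 ≤ 5148 →
      ¬ (23 ≤ f ∧ f % 11 = 1) ∧ ¬ (32 ≤ f ∧ f % 11 = 10) := by decide +kernel
  exact key f hf' hsq

/-- the local case `[N(P) : C(P)] = 2`, `|C(P)| = 33` -/
theorem case_5148 {G : Type u} [Group G] [Finite G] [IsSimpleGroup G] (hG : Nat.card G = 5148)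
    (P : Sylow 11 G) (hP : Nat.card (P : Subgroup G) = 11)
    (hr : (Subgroup.centralizer ((P : Subgroup G) : Set G)).relIndex
      (Subgroup.normalizer ((P : Subgroup G) : Set G)) = 2)
    (hC : Nat.card (Subgroup.centralizer ((P : Subgroup G) : Set G)) = 33) : False := by
  have : Fact (Nat.Prime 11) := ⟨by norm_num⟩
  have : Fact (Nat.Prime 3) := ⟨by norm_num⟩
  have hGn : ¬ (Nat.card G).Prime := by rw [hG]; norm_num
  obtain ⟨c', hc'⟩ := exists_prime_orderOf_dvd_card'
    (G := Subgroup.centralizer ((P : Subgroup G) : Set G)) 3 (by rw [hC]; norm_num)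
  have hco : orderOf (c' : G) = 3 := by rw [Subgroup.orderOf_coe]; exact hc'
  obtain ⟨k, f, a, f0, d, δ, hk, hδ, hχ, -, -, -, hnorm, -⟩ :=
    block_data hGn 11 P hP 2 (by norm_num) hr (c' : G) c'.2 3 (by norm_num) (by norm_num) hco
  rw [hG] at hχ
  have h5 : (((11 - 1) / 2 : ℕ) : ℤ) = 5 := by norm_num
  rw [h5] at hnorm
  push_cast at hnorm
  have hk1 : k ≤ 1 := by omega
  have hd1 : -1 ≤ d := by
    have := Finset.sum_nonneg (fun i (_ : i ∈ Finset.univ) => sq_nonneg (a i))
    nlinarith [sq_nonneg (d - δ)]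
  have hd2 : d ≤ 1 := by
    have := Finset.sum_nonneg (fun i (_ : i ∈ Finset.univ) => sq_nonneg (a i))
    nlinarith [sq_nonneg (d - δ)]
  interval_cases k
  · -- no non-exceptional character: impossible
    simp only [Finset.univ_eq_empty, Finset.sum_empty] at hnorm
    rcases hδ with rfl | rfl <;> interval_cases d <;> omega
  · simp only [Fin.sum_univ_one] at hnorm
    obtain ⟨ha0, hfd, hfs, n, T, hT, hn, hfe⟩ := hχ 0
    obtain ⟨h1, h2⟩ := arith_5148 (f 0) hfd hfs
    have ha1 : -1 ≤ a 0 := by nlinarith [sq_nonneg (d - δ), sq_nonneg d]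
    have ha2 : a 0 ≤ 1 := by nlinarith [sq_nonneg (d - δ), sq_nonneg d]
    obtain ⟨b, hb⟩ : ∃ b, b = a 0 := ⟨_, rfl⟩
    rw [← hb] at ha0 ha1 ha2 hn hfe
    push_cast at hn hfe
    interval_cases b
    · exact h2 (by omega)
    · exact ha0 rfl
    · exact h1 (by omega)

/-- No non-abelian simple group has order `5148`. -/
theorem noSimple_5148 : NoSimple.{u} 5148 :=
  noSimple_of_cases 5148 11 2 468 (by norm_num) (by norm_num) (by norm_num) (by norm_num)
    (by norm_num) (by norm_num) (by norm_num) [(2, 33)] (by decide +kernel)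
    (by
      intro rc hrc G _ _ _ hG P hP hr hC
      simp only [List.mem_singleton] at hrc
      subst hrc
      exact case_5148 hG P hP hr hC)

end Cfsg.Agent.Lib.Helper64.Ord5148
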